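import Cfsg.Agent.Lib.Helper17.E6I.DefsE

set_option autoImplicit false

namespace Cfsg.Agent.Lib.Helper8.E6I

open Cfsg.Lie Cfsg.Agent.Lib.Helper18 Cfsg.Agent.Lib.Helper17 Cfsg.Agent.Lib.Helper36
  Cfsg.Agent.Lib.Helper6 Matrix Cfsg.Agent.Lib.Helper17.E6I

variable {F : Type*} [Field F] (hB : Base chevE6 F)

theorem E1_tab1 : ∀ r s : Fin 72, 36 ≤ r.val → 36 ≤ s.val → e6add r s = none →
    (s.val = r.val ∨ (s.val ≠ r.val ∧ s.val ≠ chevE6.neg r ∧ chevE6.commTerms r s = [])) := by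
  decide +kernel

/-- [E1a] -/
theorem e6_comm_none (r s : ℕ) (hr : 36 ≤ r) (hr' : r < 72) (hs : 36 ≤ s) (hs' : s < 72)
    (h : e6add r s = none) (t u : F) : hB.xg r t * hB.xg s u = hB.xg s u * hB.xg r t := by
  apply CG.comm_dvd hB (m := 0) (by simp) hr' hs'
  rcases E1_tab1 ⟨r, hr'⟩ ⟨s, hs'⟩ hr hs h with h1 | ⟨h1, h2, h3⟩
  · exact Or.inl h1
  · refine Or.inr ⟨h1, h2, ?_⟩
    intro c hc
    change c ∈ chevE6.commTerms r s at hc
    have h3' : chevE6.commTerms r s = [] := h3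
    rw [h3'] at hc
    simp at hc

theorem E1_tab2 : ∀ r s : Fin 72, (e6add r s).all (fun k => decide (s.val ≠ r.val ∧
    s.val ≠ chevE6.neg r ∧ (chevE6.commTerms r s = [(k, 1, 1, 1)] ∨
      chevE6.commTerms r s = [(k, -1, 1, 1)]))) = true := by
  decide +kernel

theorem E1_conj_single' [CharP F 2] {r s k : ℕ} (hr : r < 72) (hs : s < 72) (h1 : s ≠ r)
    (h2 : s ≠ chevE6.neg r) (h : chevE6.commTerms r s = [(k, -1, 1, 1)]) (t u : F) :
    hB.xg r t * hB.xg s u * (hB.xg r t)⁻¹ = hB.xg s u * hB.xg k (t * u) := by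
  have h3 := hB.comm_xg hr hs h1 h2 (-t) u
  have h4 : hB.wg (chevE6.commWord F r s (-t) u) = hB.xg k (t * u) := by
    unfold ChevalleyDatum.commWord
    rw [h]
    simp [Base.wg, CharTwo.neg_eq]
  rw [h4, hB.xg_inv, neg_neg] at h3
  rw [hB.xg_inv]
  exact h3

/-- [E1b] -/
theorem e6_conj_some [CharP F 2] (r s k : ℕ) (hr : 36 ≤ r) (hr' : r < 72) (hs : 36 ≤ s) (hs' : s < 72)
    (h : e6add r s = some k) (t u : F) :
    hB.xg r t * hB.xg s u * (hB.xg r t)⁻¹ = hB.xg s u * hB.xg k (t * u) := by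
  have h1 := E1_tab2 ⟨r, hr'⟩ ⟨s, hs'⟩
  simp only [h, Option.all_some, decide_eq_true_eq] at h1
  obtain ⟨h2, h3, h4 | h4⟩ := h1
  · exact CG.conj_single hB hr' hs' h2 h3 h4 t u
  · exact E1_conj_single' hB hr' hs' h2 h3 h4 t u

end Cfsg.Agent.Lib.Helper8.E6I
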