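import Cfsg.Agent.Lib.Helper17.E6I.DefsE

set_option autoImplicit false

namespace Cfsg.Agent.Lib.Helper8.E6I

open Cfsg.Lie Cfsg.Agent.Lib.Helper18 Cfsg.Agent.Lib.Helper17 Cfsg.Agent.Lib.Helper36
  Cfsg.Agent.Lib.Helper6 Matrix Cfsg.Agent.Lib.Helper17.E6I

variable {F : Type*} [Field F] (hB : Base chevE6 F)

theorem E2_tab1 : ∀ r s : Fin 72,
    (e6add r s).all (fun k => decide (r.val < k ∧ s.val < k ∧ k < 72)) = true := by
  decide +kernel

theorem E2_bd {r s k : ℕ} (h : e6add r s = some k) : r < 72 ∧ s < 72 := by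
  unfold e6add at h
  split_ifs at h with h1
  exact ⟨h1.2.1, h1.2.2.2⟩

/-- [E2] tables -/
theorem e6_add_lt (r s k : ℕ) (h : e6add r s = some k) : r < k ∧ s < k ∧ k < 72 := by
  obtain ⟨hr, hs⟩ := E2_bd h
  have h1 := E2_tab1 ⟨r, hr⟩ ⟨s, hs⟩
  simp only [h, Option.all_some, decide_eq_true_eq] at h1
  exact h1

theorem E2_tab2 : ∀ r s : Fin 72, e6add r s = e6add s r := by
  decide +kernel

theorem e6_add_symm (r s : ℕ) : e6add r s = e6add s r := by
  by_cases h : r < 72 ∧ s < 72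
  · exact E2_tab2 ⟨r, h.1⟩ ⟨s, h.2⟩
  · unfold e6add
    rw [if_neg (by tauto), if_neg (by tauto)]

theorem E2_tab3 : ∀ s : Fin 72, ((List.range 72).filterMap (fun r => e6add s r)).Pairwise (· < ·) := by
  decide +kernel

theorem e6_add_mono (s r r' k k' : ℕ) (h : e6add s r = some k) (h' : e6add s r' = some k')
    (hlt : r < r') : k < k' := by
  obtain ⟨hs, hr⟩ := E2_bd h
  obtain ⟨-, hr'⟩ := E2_bd h'
  have h1 := E2_tab3 ⟨s, hs⟩
  rw [List.pairwise_filterMap, List.pairwise_iff_getElem] at h1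
  have h2 := h1 r r' (by simpa using hr) (by simpa using hr') hlt
  simp only [List.getElem_range] at h2
  exact h2 k h k' h'

end Cfsg.Agent.Lib.Helper8.E6I
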