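import Cfsg.Agent.Lib.Helper17.E6I.DefsE

set_option autoImplicit false

namespace Cfsg.Agent.Lib.Helper8.E6I

open Cfsg.Lie Cfsg.Agent.Lib.Helper18 Cfsg.Agent.Lib.Helper17 Cfsg.Agent.Lib.Helper36
  Cfsg.Agent.Lib.Helper6 Matrix Cfsg.Agent.Lib.Helper17.E6I

variable {F : Type*} [Field F] (hB : Base chevE6 F)

theorem E3_bd {r s k : ℕ} (h : e6add r s = some k) : 36 ≤ r ∧ r < 72 ∧ 36 ≤ s ∧ s < 72 := by
  unfold e6add at h
  split_ifs at h with h1
  exact h1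

theorem E3_oob (r s : ℕ) (hr : 72 ≤ r) : chevE6.pairing r s = 0 := by
  unfold ChevalleyDatum.pairing
  have h1 : chevE6.coroot.size = 72 := by decide +kernel
  have h2 : chevE6.coroot.getD r #[] = #[] := by
    rw [Array.getD_eq_getD_getElem?, Array.getElem?_eq_none (by omega)]
    rfl
  rw [h2]
  simp

theorem E3_tabAdd : ∀ a b : Fin 72, (e6add a b).all (fun k => decide (k < 72 ∧ ∀ r0 : Fin 72,
    chevE6.pairing r0 k = chevE6.pairing r0 a + chevE6.pairing r0 b)) = true := by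
  decide +kernel

theorem E3_add {a b k : ℕ} (h : e6add a b = some k) (r0 : ℕ) :
    chevE6.pairing r0 k = chevE6.pairing r0 a + chevE6.pairing r0 b := by
  by_cases hr0 : r0 < 72
  · obtain ⟨-, ha, -, hb⟩ := E3_bd h
    have h1 := E3_tabAdd ⟨a, ha⟩ ⟨b, hb⟩
    simp only [h, Option.all_some, decide_eq_true_eq] at h1
    exact h1.2 ⟨r0, hr0⟩
  · rw [E3_oob _ _ (by omega), E3_oob _ _ (by omega), E3_oob _ _ (by omega), add_zero]

theorem E3_tabNone : ∀ r0 r : Fin 72, chevE6.pairing r0 r = 0 → e6add r0 r = none := by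
  decide +kernel

theorem E3_tabOne : ∀ r0 d : Fin 72,
    (e6add r0 d).all (fun k => decide (chevE6.pairing r0 k = 1)) = true := by
  decide +kernel

theorem E3_tabEx : ∀ r0 a : Fin 72, 36 ≤ r0.val → r0 < a → chevE6.pairing r0 a = 1 →
    ∃ d : Fin 72, e6add r0 d = some a.val := by
  decide +kernel

theorem E3_tabTri : ∀ r0 r : Fin 72, 36 ≤ r0.val → r0 < r →
    chevE6.pairing r0 r = 0 ∨ chevE6.pairing r0 r = 1 ∨
      (chevE6.pairing r0 r = -1 ∧ (e6add r0 r).isSome = true) := by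
  decide +kernel

/-- [E3] tables. -/
theorem e6_tri (r0 r : ℕ) (h0 : 36 ≤ r0) (h1 : r0 < r) (h2 : r < 72) :
    e6orth r0 r ∨ (∃ d, e6add r0 d = some r) ∨ (∃ p, e6add r0 r = some p) := by
  rcases E3_tabTri ⟨r0, by omega⟩ ⟨r, h2⟩ h0 h1 with h | h | h
  · exact Or.inl h
  · obtain ⟨d, hd⟩ := E3_tabEx ⟨r0, by omega⟩ ⟨r, h2⟩ h0 h1 h
    exact Or.inr (Or.inl ⟨d, hd⟩)
  · exact Or.inr (Or.inr (Option.isSome_iff_exists.1 h.2))

theorem e6_orth_none (r0 r : ℕ) (h : e6orth r0 r) : e6add r0 r = none := by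
  by_cases hb : r0 < 72 ∧ r < 72
  · exact E3_tabNone ⟨r0, hb.1⟩ ⟨r, hb.2⟩ h
  · unfold e6add
    rw [if_neg (by tauto)]

theorem e6_orth_add (r0 a b k : ℕ) (ha : e6orth r0 a) (hb : e6orth r0 b) (h : e6add a b = some k) :
    e6orth r0 k := by
  unfold e6orth at *
  rw [E3_add h r0, ha, hb, add_zero]

theorem e6_orth_sub (r0 a d k : ℕ) (ha : e6orth r0 a) (hk : e6orth r0 k) (h : e6add a d = some k) :
    e6orth r0 d := by
  unfold e6orth at *
  have h1 := E3_add h r0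
  rw [hk, ha, zero_add] at h1
  exact h1.symm

theorem e6_good_add (r0 a b k d : ℕ) (ha : r0 < a) (hb : r0 < b) (h : e6add a b = some k)
    (hd : e6add r0 d = some k) : (∃ d', e6add r0 d' = some a) ∨ (∃ d', e6add r0 d' = some b) := by
  obtain ⟨h36, h72, -, hd72⟩ := E3_bd hd
  obtain ⟨-, ha72, -, hb72⟩ := E3_bd h
  have h1 := E3_tabOne ⟨r0, h72⟩ ⟨d, hd72⟩
  simp only [hd, Option.all_some, decide_eq_true_eq] at h1
  have h2 := E3_add h r0
  rw [h1] at h2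
  have h3 := E3_tabTri ⟨r0, h72⟩ ⟨a, ha72⟩ h36 ha
  have h4 := E3_tabTri ⟨r0, h72⟩ ⟨b, hb72⟩ h36 hb
  have h3' : chevE6.pairing r0 a = 0 ∨ chevE6.pairing r0 a = 1 ∨ chevE6.pairing r0 a = -1 := by
    rcases h3 with h | h | h
    · exact Or.inl h
    · exact Or.inr (Or.inl h)
    · exact Or.inr (Or.inr h.1)
  have h4' : chevE6.pairing r0 b = 0 ∨ chevE6.pairing r0 b = 1 ∨ chevE6.pairing r0 b = -1 := by
    rcases h4 with h | h | h
    · exact Or.inl h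
    · exact Or.inr (Or.inl h)
    · exact Or.inr (Or.inr h.1)
  have h5 : chevE6.pairing r0 a = 1 ∨ chevE6.pairing r0 b = 1 := by omega
  rcases h5 with h5 | h5
  · obtain ⟨d', hd'⟩ := E3_tabEx ⟨r0, h72⟩ ⟨a, ha72⟩ h36 ha h5
    exact Or.inl ⟨d', hd'⟩
  · obtain ⟨d', hd'⟩ := E3_tabEx ⟨r0, h72⟩ ⟨b, hb72⟩ h36 hb h5
    exact Or.inr ⟨d', hd'⟩

end Cfsg.Agent.Lib.Helper8.E6I
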