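import Cfsg.Agent.Lib.Helper17.E6I.DefsE

set_option autoImplicit false

namespace Cfsg.Agent.Lib.Helper8.E6I

open Cfsg.Lie Cfsg.Agent.Lib.Helper18 Cfsg.Agent.Lib.Helper17 Cfsg.Agent.Lib.Helper36
  Cfsg.Agent.Lib.Helper6 Matrix Cfsg.Agent.Lib.Helper17.E6I

variable {F : Type*} [Field F] (hB : Base chevE6 F)

/-- [E4] -/
theorem e6_inj (c c' : ℕ → F)
    (h : ((List.range' 36 (72 - 36)).map fun r => hB.xg r (c r)).prod =
      ((List.range' 36 (72 - 36)).map fun r => hB.xg r (c' r)).prod) (r : ℕ) (h0 : 36 ≤ r) (h1 : r < 72) :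
    c r = c' r := by
  have hD : chevE6 ∈ [chevG2, chevB2, chevD4, chevF4, chevE6, chevE7, chevE8] := by simp
  apply CG.lp_inj hB hD (L := List.range' 36 (72 - 36)) ?_ ?_ h r ?_
  · decide +kernel
  · decide
  · simp only [List.mem_range'_1]
    omega

end Cfsg.Agent.Lib.Helper8.E6I
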